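import Cfsg.Agent.Lib.ToddCox.HCVO.OrbD
set_option autoImplicit false
set_option maxRecDepth 100000
namespace Cfsg.Agent.Lib.ToddCox.HCVO
open Cfsg.Agent.Lib.ToddCox.HCVT in
theorem lv0_0 : allBits (fun k => bif Nat.blt k 16 then chkOrbPos Cfsg.Agent.Lib.ToddCox.HCVT.tab L 0 2 16 32 (fun q => orbR (Nat.add 0 q)) k else true) 11 0 = true := by decide +kernel
theorem fx0 : ∀ w ∈ L.drop 5, tabW Cfsg.Agent.Lib.ToddCox.HCVT.tab w 2 = 2 := by decide +kernel
theorem lv1_0 : allBits (fun k => bif Nat.blt k 14 then chkOrbPos Cfsg.Agent.Lib.ToddCox.HCVT.tab L 5 4 14 32 (fun q => orbR (Nat.add 16 q)) k else true) 11 0 = true := by decide +kernel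
theorem fx1 : ∀ w ∈ L.drop 9, tabW Cfsg.Agent.Lib.ToddCox.HCVT.tab w 4 = 4 := by decide +kernel
theorem lv2_0 : allBits (fun k => bif Nat.blt k 12 then chkOrbPos Cfsg.Agent.Lib.ToddCox.HCVT.tab L 9 8 12 32 (fun q => orbR (Nat.add 30 q)) k else true) 11 0 = true := by decide +kernel
theorem fx2 : ∀ w ∈ L.drop 13, tabW Cfsg.Agent.Lib.ToddCox.HCVT.tab w 8 = 8 := by decide +kernel
theorem lv3_0 : allBits (fun k => bif Nat.blt k 8 then chkOrbPos Cfsg.Agent.Lib.ToddCox.HCVT.tab L 13 16 8 32 (fun q => orbR (Nat.add 42 q)) k else true) 11 0 = true := by decide +kernel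
theorem fx3 : ∀ w ∈ L.drop 16, tabW Cfsg.Agent.Lib.ToddCox.HCVT.tab w 16 = 16 := by decide +kernel
end Cfsg.Agent.Lib.ToddCox.HCVO
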